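import Cfsg.Agent.CpAutHe.Bound

/-!
# The centralizer of an element of order 17 in the Held group
-/

set_option autoImplicit false

namespace Cfsg.Agent.H394.HeSeventeen

open Subgroup
open Cfsg.Spor Cfsg.Spor.He Cfsg.Agent.SporadicB.HePerm
open Cfsg.Agent.FixBN.HeStab Cfsg.Agent.KFacts.He.Lv Cfsg.Agent.CpAutHe.Cnt Cfsg.Agent.CpAutHe.Bound

/-- the word of the element of order 17 -/
def X : List Gen := [.b, .c, .d, .g]

set_option maxRecDepth 100000

theorem cA : cnt 2058 (tst X [] [2, 3, 7] 0) = 17 := by decide +kernel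

theorem sB : ([0, 152, 727, 716, 1774, 1900, 2042].all fun a => elemN a (nx X [] 0)) = true := by decide +kernel

theorem dB : cnt 2058 (tst X [0, 152, 1774, 1900, 2042] [] 1) = 1 := by decide +kernel
theorem dC : cnt 2058 (tst X [0, 727, 1774, 2042] [5] 32) = 1 := by decide +kernel
theorem dD : cnt 2058 (tst X [0, 152, 727, 716, 1774, 1900] [] 8) = 1 := by decide +kernel

theorem card_le : Nat.card ↥(centralizer ({wd X} : Set Cfsg.Spor.He)) ≤ 17 := by
  have hC : ∀ c ∈ centralizer ({wd X} : Set Cfsg.Spor.He), c * wd X = wd X * c := fun c hc =>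
    mem_centralizer_singleton_iff.1 hc
  have hC1 : ∀ c ∈ st (centralizer ({wd X} : Set Cfsg.Spor.He)) 0, c * wd X = wd X * c := fun c hc =>
    hC c (mem_st.1 hc).1
  have hF1 : ∀ c ∈ st (centralizer ({wd X} : Set Cfsg.Spor.He)) 0, ∀ f ∈ nx X [] 0, Fx c f := fun c hc =>
    fx_nx (p := 0) (hC1 c hc) (fun _ hf => absurd hf List.not_mem_nil) (mem_st.1 hc).2
  have h1 : Nat.card ↥(st (centralizer ({wd X} : Set Cfsg.Spor.He)) 0) ≤ 1 := by
    rw [Subgroup.card_le_one_iff_eq_bot, eq_bot_iff_forall]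
    intro c hc
    have hs := sub_of_chk sB
    have k := fix_of_one (hC1 c hc) (hF1 c hc)
    have e0 : phi c 0 = 0 := (mem_st.1 hc).2
    have e1 : phi c 1 = 1 := k 1 [0, 152, 1774, 1900, 2042] [] (fun a ha => hs (by revert ha; revert a; decide)) dB
    have e2 : phi c 32 = 32 := k 32 [0, 727, 1774, 2042] [5] (fun a ha => hs (by revert ha; revert a; decide)) dC
    have e3 : phi c 8 = 8 := k 8 [0, 152, 727, 716, 1774, 1900] [] (fun a ha => hs (by revert ha; revert a; decide)) dD
    have e : ∀ i, phi (1 : Cfsg.Spor.He) i = i := fun i => by rw [map_one]; rfl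
    apply eq_of_base
    · rw [e0, e]
    · rw [e1, e]
    · rw [e2, e]
    · rw [e3, e]
  exact step (F := []) hC (fun _ _ f hf => absurd hf List.not_mem_nil) 0 [] [2, 3, 7] (fun _ h => h) cA h1

theorem pow_X : wd X ^ 17 = 1 := by
  rw [← wd_pw, ← wd_nil]
  exact eq_of_chkB (by decide +kernel)

theorem ne_X : wd X ≠ 1 := by
  intro h
  have h1 : phi (wd X) 0 = 0 := by rw [h, map_one]; rfl
  have h2 : (phi (wd X) 0 : ℕ) = act X 0 := phi_wd_apply X 0
  rw [h1] at h2
  revert h2
  decide +kernel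

theorem order_X : orderOf (wd X) = 17 := by
  have : Fact (Nat.Prime 17) := ⟨by norm_num⟩
  exact orderOf_eq_prime pow_X ne_X

end Cfsg.Agent.H394.HeSeventeen
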